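import Cfsg.Agent.S0336
import Cfsg.Agent.H131.T5Hall
import Cfsg.Agent.H713.Spor.Fi22
import Cfsg.Agent.H464.RM.Tools
import Cfsg.Agent.J2Type.FiveFus
import Cfsg.Agent.KFacts.J2.Facts
import Cfsg.Agent.NotCT.Orders

/-!
# S4247-SP4 (helper108)

* `no_hall_j2` : `J2` has no subgroup of order 675 (the normalizer of a Sylow 5-subgroup has order 300);
* `no_sub_fi22` : `Fi22` has no subgroup of order `2^17·5^2·7·11` or `2^16·5^2·7·11` (it would be solvable, so elements of
  orders 7 and 11 would commute, but `|C(11)| = 22`).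
-/

set_option autoImplicit false

namespace Cfsg.Agent.H108.Sp4

open Cfsg Subgroup Cfsg.Agent

universe u

theorem no_hall_j2 {S : Type u} [Group S] [Finite S] (h : Cfsg.Spor.IsoJ2 S) (P : Subgroup S)
    (hP : Nat.card P = 675) : False := by
  have hc := NotCT.Orders.j2 h
  have hf : Fact (Nat.Prime 5) := ⟨by norm_num⟩
  obtain ⟨z, u, Q, v, ρ, D⟩ := KFacts.J2.Facts.exists_dat_of h
  refine H464.RM.no_norm (s := 3) (t := 5) (a := 3) (b := 2) (m := 896) Nat.prime_three (by norm_num)
    (by rw [hc]; norm_num) (by norm_num) (by norm_num) ?_ ?_ P ?_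
  · intro k h1 h2
    interval_cases k <;> norm_num
  · intro P hP hPi
    have h1 := (J2Type.FiveFus.sylow_five D.F (hP.toSylow hPi)).2.2.1
    have h2 : ((hP.toSylow hPi : Sylow 5 S) : Subgroup S) = P := rfl
    rw [h2] at h1
    rw [h1]
    norm_num
  · have hi : P.index = 896 := by
      have h1 := P.card_mul_index
      rw [hP, hc] at h1
      omega
    refine ⟨fun p hp hd => ?_, fun p hp hpm hd => ?_⟩
    · rw [hP, show (675 : ℕ) = 3 ^ 3 * 5 ^ 2 by norm_num] at hd
      rcases (Nat.Prime.dvd_mul hp).1 hd with h1 | h1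
      · exact Or.inl ((Nat.prime_dvd_prime_iff_eq hp Nat.prime_three).1 (hp.dvd_of_dvd_pow h1))
      · exact Or.inr ((Nat.prime_dvd_prime_iff_eq hp (by norm_num)).1 (hp.dvd_of_dvd_pow h1))
    · rw [hi] at hd
      rcases hpm with rfl | rfl
      · norm_num at hd
      · norm_num at hd

theorem suz_num {m : ℕ} (hm : 1 ≤ m)
    (h : (2 ^ (2 * m + 1)) ^ 2 * ((2 ^ (2 * m + 1)) ^ 2 + 1) * (2 ^ (2 * m + 1) - 1) ∣ 2 ^ 17 * 1925) : False := by
  have h1 : (2 ^ (2 * m + 1)) ^ 2 ∣ 2 ^ 17 * 1925 := dvd_trans (Dvd.intro _ (mul_assoc _ _ _).symm) h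
  have h2 : (2 ^ (2 * m + 1)) ^ 2 ∣ 2 ^ 17 := by
    refine Nat.Coprime.dvd_of_dvd_mul_right ?_ h1
    rw [← pow_mul]
    exact Nat.Coprime.pow_left _ (by norm_num)
  rw [← pow_mul, Nat.pow_dvd_pow_iff_le_right (by norm_num)] at h2
  have h3 : m ≤ 3 := by omega
  have h4 : ((2 ^ (2 * m + 1)) ^ 2 + 1) ∣ 2 ^ 17 * 1925 := by
    refine dvd_trans ?_ h
    exact ⟨(2 ^ (2 * m + 1)) ^ 2 * (2 ^ (2 * m + 1) - 1), by ring⟩
  interval_cases m <;> norm_num at h4

theorem solvable_aux (k : ℕ) : ∀ (G : Type u) [Group G] [Finite G], Nat.card G ≤ k →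
    Nat.card G ∣ 2 ^ 17 * 1925 → Group.IsSolvable G := by
  induction k with
  | zero =>
    intro G _ _ h0
    exact absurd (Nat.card_pos (α := G)) (by omega)
  | succ k ih =>
    intro G _ _ hk hd
    have h3 : ¬ 3 ∣ Nat.card G := fun h => by
      have h4 := h.trans hd
      norm_num at h4
    by_cases hs : IsSimpleGroup G
    · by_cases hc : ∃ a b : G, a * b ≠ b * a
      · obtain ⟨-, m, hm, hcard⟩ := Cfsg.Agent.S0336.result hc h3
        exact (suz_num hm (hcard ▸ hd)).elim
      · push Not at hc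
        exact Group.isSolvable_of_comm hc
    · by_cases ht : Subsingleton G
      · exact Group.isSolvable_of_comm (fun a b => Subsingleton.elim _ _)
      · have hnt : Nontrivial G := not_subsingleton_iff_nontrivial.mp ht
        have hex : ∃ N : Subgroup G, N.Normal ∧ N ≠ ⊥ ∧ N ≠ ⊤ := by
          by_contra hcon
          push Not at hcon
          exact hs ⟨fun N hN => or_iff_not_imp_left.mpr (hcon N hN)⟩
        obtain ⟨N, hN, hN1, hN2⟩ := hex
        have hci := Subgroup.card_mul_index N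
        have hNpos : 1 < Nat.card N := (Subgroup.one_lt_card_iff_ne_bot N).mpr hN1
        have hi1 : N.index ≠ 1 := fun h => hN2 (Subgroup.index_eq_one.mp h)
        have hipos : N.index ≠ 0 := Subgroup.index_ne_zero_of_finite
        have hlt1 : Nat.card N < Nat.card G := by
          have : 2 ≤ N.index := by omega
          nlinarith
        have hlt2 : Nat.card (G ⧸ N) < Nat.card G := by
          change N.index < _
          have : 1 ≤ N.index := by omega
          nlinarith
        have hs1 : Group.IsSolvable N := ih N (by omega) ((Subgroup.card_subgroup_dvd_card N).trans hd)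
        have hdq : Nat.card (G ⧸ N) ∣ Nat.card G := Subgroup.index_dvd_card N
        have hs2 : Group.IsSolvable (G ⧸ N) := ih (G ⧸ N) (by omega) (hdq.trans hd)
        exact Group.isSolvable_of_ker_le_range N.subtype (QuotientGroup.mk' N) (by simp)

/-- in a group of order 77 elements of orders 7 and 11 commute -/
theorem comm77 {L : Type*} [Group L] [Finite L] (hL : Nat.card L = 77) :
    ∃ x y : L, orderOf x = 7 ∧ orderOf y = 11 ∧ x * y = y * x := by
  have h7 : Fact (Nat.Prime 7) := ⟨by norm_num⟩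
  have h11 : Fact (Nat.Prime 11) := ⟨by norm_num⟩
  obtain ⟨x, hx⟩ := exists_prime_orderOf_dvd_card' (G := L) 7 (by rw [hL]; norm_num)
  obtain ⟨y, hy⟩ := exists_prime_orderOf_dvd_card' (G := L) 11 (by rw [hL]; norm_num)
  refine ⟨x, y, hx, hy, ?_⟩
  -- the Sylow 11-subgroup
  have hpg : IsPGroup 11 (zpowers y) := IsPGroup.of_card (n := 1) (by rw [Nat.card_zpowers, hy, pow_one])
  obtain ⟨P, hP⟩ := hpg.exists_le_sylow
  have hPc : Nat.card P = 11 := by
    rw [P.card_eq_multiplicity, hL]
    have : (77 : ℕ).factorization 11 = 1 := by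
      rw [show (77 : ℕ) = 7 * 11 by norm_num, Nat.factorization_mul (by norm_num) (by norm_num),
        Nat.Prime.factorization (by norm_num : Nat.Prime 7), Nat.Prime.factorization (by norm_num : Nat.Prime 11)]
      simp
    rw [this, pow_one]
  have hPy : zpowers y = (P : Subgroup L) := by
    apply Subgroup.eq_of_le_of_card_ge hP
    rw [Nat.card_zpowers, hy]
    exact hPc.le
  have hn1 := card_sylow_modEq_one 11 L
  have hn2 : Nat.card (Sylow 11 L) ∣ 7 := by
    have h1 := P.card_dvd_index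
    have h2 := (P : Subgroup L).card_mul_index
    rw [hL, hPc] at h2
    have h3 : (P : Subgroup L).index = 7 := by omega
    rwa [h3] at h1
  have hn3 : Nat.card (Sylow 11 L) = 1 := by
    rcases (Nat.dvd_prime (by norm_num)).1 hn2 with h1 | h1
    · exact h1
    · rw [h1] at hn1
      exact absurd hn1 (by decide)
  have hsub : Subsingleton (Sylow 11 L) := (Nat.card_eq_one_iff_unique.1 hn3).1
  have hnorm : (P : Subgroup L).Normal := Sylow.normal_of_subsingleton P
  rw [← hPy] at hnorm
  exact H131.T5.commute_of_prime_order (by norm_num) hy (hnorm.conj_mem y (mem_zpowers y) x) (n := 7)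
    (by rw [← hx, pow_orderOf_eq_one]) (by norm_num)

theorem no_sub_fi22 {S : Type u} [Group S] [Finite S] (h : Cfsg.Spor.IsoFi22 S) (H : Subgroup S)
    (hH : Nat.card H = 2 ^ 17 * 5 ^ 2 * 7 * 11 ∨ Nat.card H = 2 ^ 16 * 5 ^ 2 * 7 * 11) : False := by
  obtain ⟨e⟩ := h
  have hd : Nat.card H ∣ 2 ^ 17 * 1925 := by
    rcases hH with h1 | h1 <;> rw [h1] <;> norm_num
  have hs : Group.IsSolvable H := solvable_aux _ H le_rfl hd
  obtain ⟨n, hn, hcop⟩ : ∃ n, Nat.card H = 77 * n ∧ Nat.Coprime 77 n := by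
    rcases hH with h1 | h1
    · exact ⟨2 ^ 17 * 5 ^ 2, by rw [h1]; norm_num, by norm_num⟩
    · exact ⟨2 ^ 16 * 5 ^ 2, by rw [h1]; norm_num, by norm_num⟩
  obtain ⟨L, hL⟩ := Solvable.Hall.hall_exists (G := H) 77 n hn hcop
  obtain ⟨x, y, hx, hy, hxy⟩ := comm77 hL
  have h1 : orderOf (((y : L) : H) : S) = 11 := by rw [Subgroup.orderOf_coe, Subgroup.orderOf_coe, hy]
  have h2 : orderOf (((x : L) : H) : S) = 7 := by rw [Subgroup.orderOf_coe, Subgroup.orderOf_coe, hx]
  have h3 := H713.Spor.Fi22.cent_11 e h1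
  have h4 : (((x : L) : H) : S) ∈ centralizer ({(((y : L) : H) : S)} : Set S) := by
    rw [mem_centralizer_singleton_iff]
    exact congrArg (fun z : L => ((z : H) : S)) hxy
  have h5 := Subgroup.orderOf_dvd_natCard _ h4
  rw [h2, h3] at h5
  norm_num at h5

end Cfsg.Agent.H108.Sp4
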